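import Mathlib

/-!
Number theory for the graph automorphism of `SL_3(q)`: a prime `ℓ ∣ q² + q + 1`, `ℓ ∤ q - 1`, such that `-1` is not of the
form `p^j q^i` modulo `ℓ`.
-/

set_option autoImplicit false

namespace Cfsg.Agent.H622.Levi

/-- a prime divisor other than three of `x² + x + 1` -/
theorem exists_prime_dvd {x : ℕ} (hx : 2 ≤ x) : ∃ l : ℕ, l.Prime ∧ l ≠ 3 ∧ l ≠ 2 ∧ l ∣ x ^ 2 + x + 1 := by
  have hodd : ¬ 2 ∣ x ^ 2 + x + 1 := by
    intro h
    have h1 : (x ^ 2 + x + 1) % 2 = 0 := Nat.mod_eq_zero_of_dvd h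
    rcases Nat.mod_two_eq_zero_or_one x with h0 | h0
    · rw [Nat.add_mod, Nat.add_mod (x ^ 2), Nat.pow_mod, h0] at h1
      norm_num at h1
    · rw [Nat.add_mod, Nat.add_mod (x ^ 2), Nat.pow_mod, h0] at h1
      norm_num at h1
  have h9 : ¬ 9 ∣ x ^ 2 + x + 1 := by
    intro h
    have h1 : (x ^ 2 + x + 1) % 9 = 0 := Nat.mod_eq_zero_of_dvd h
    have h2 : x % 9 < 9 := Nat.mod_lt _ (by norm_num)
    rw [Nat.add_mod, Nat.add_mod (x ^ 2), Nat.pow_mod] at h1
    interval_cases x % 9 <;> norm_num at h1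
  by_contra hno
  push Not at hno
  have hall : ∀ l : ℕ, l.Prime → l ∣ x ^ 2 + x + 1 → l = 3 := by
    intro l hl hd
    by_contra h3
    have h2 : l ≠ 2 := by rintro rfl; exact hodd hd
    exact hno l hl h3 h2 hd
  have h1 : x ^ 2 + x + 1 = 3 ^ (x ^ 2 + x + 1).primeFactorsList.length := by
    refine Nat.eq_prime_pow_of_unique_prime_dvd (by positivity) ?_
    intro l hl hd
    exact hall l hl hd
  have h7 : 7 ≤ x ^ 2 + x + 1 := by nlinarith
  set k := (x ^ 2 + x + 1).primeFactorsList.length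
  have hk : 2 ≤ k := by
    by_contra hk
    have : k = 0 ∨ k = 1 := by omega
    rcases this with h0 | h0 <;> rw [h0] at h1 <;> norm_num at h1 <;> omega
  apply h9
  rw [h1]
  exact pow_dvd_pow 3 hk

/-- **The prime `ℓ`.** -/
theorem exists_ell {p a q : ℕ} (hp : p.Prime) (ha : 0 < a) (hq : q = p ^ a) :
    ∃ l : ℕ, l.Prime ∧ l ∣ q ^ 2 + q + 1 ∧ ¬ l ∣ q - 1 ∧ ∀ i j : ℕ, ((p : ZMod l)) ^ j * (q : ZMod l) ^ i ≠ -1 := by
  obtain ⟨b, f, hf, rfl⟩ : ∃ b f, Odd f ∧ a = 2 ^ b * f := by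
    obtain ⟨b, f, hf, e⟩ := Nat.exists_eq_two_pow_mul_odd ha.ne'
    exact ⟨b, f, hf, e⟩
  have hf0 : f ≠ 0 := by rintro rfl; exact absurd hf (by decide)
  have hx : 2 ≤ p ^ f := by
    have := Nat.one_lt_pow hf0 hp.one_lt
    omega
  obtain ⟨l, hl, h3, h2, hd⟩ := exists_prime_dvd hx
  have : Fact l.Prime := ⟨hl⟩
  let x : ZMod l := ((p ^ f : ℕ) : ZMod l)
  have hx1 : x ^ 2 + x + 1 = 0 := by
    have h4 : (((p ^ f) ^ 2 + p ^ f + 1 : ℕ) : ZMod l) = 0 := (ZMod.natCast_eq_zero_iff _ _).2 hd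
    push_cast at h4
    change ((p ^ f : ℕ) : ZMod l) ^ 2 + ((p ^ f : ℕ) : ZMod l) + 1 = 0
    push_cast
    exact h4
  have hx3 : x ^ 3 = 1 := by linear_combination (x - 1) * hx1
  have hxne : x ≠ 1 := by
    intro h
    rw [h] at hx1
    have h5 : ((3 : ℕ) : ZMod l) = 0 := by push_cast; linear_combination hx1
    rw [ZMod.natCast_eq_zero_iff] at h5
    exact h3 ((Nat.prime_dvd_prime_iff_eq hl Nat.prime_three).1 h5)
  have hqx : (q : ZMod l) = x ^ 2 ^ b := by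
    rw [hq, mul_comm, pow_mul]
    push_cast
    change _ = ((p ^ f : ℕ) : ZMod l) ^ 2 ^ b
    push_cast
    rfl
  -- the powers `x ^ (2 ^ b)` are `x` or `x ^ 2`
  have hb : ∀ b : ℕ, x ^ 2 ^ b = x ∨ x ^ 2 ^ b = x ^ 2 := by
    intro b
    induction b with
    | zero => left; rw [pow_zero, pow_one]
    | succ b ih =>
      rw [pow_succ, pow_mul]
      rcases ih with h | h
      · right; rw [h]
      · left
        rw [h]
        linear_combination x * hx3
  have hq1 : (q : ZMod l) ^ 2 + q + 1 = 0 ∧ (q : ZMod l) ≠ 1 := by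
    rw [hqx]
    rcases hb b with h | h
    · rw [h]; exact ⟨hx1, hxne⟩
    · rw [h]
      constructor
      · linear_combination hx1 + x * hx3
      · intro h1
        apply hxne
        have : x = x ^ 3 := by rw [pow_succ, h1, one_mul]
        rw [this, hx3]
  have hq3 : (q : ZMod l) ^ 3 = 1 := by linear_combination ((q : ZMod l) - 1) * hq1.1
  have hqpos : 1 ≤ q := by rw [hq]; exact Nat.one_le_pow _ _ hp.pos
  refine ⟨l, hl, ?_, ?_, ?_⟩
  · rw [← ZMod.natCast_eq_zero_iff]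
    push_cast
    exact hq1.1
  · intro h
    rw [← ZMod.natCast_eq_zero_iff, Nat.cast_sub hqpos, Nat.cast_one, sub_eq_zero] at h
    exact hq1.2 h
  · intro i j h
    have h4 := congrArg (fun y => y ^ (3 * f)) h
    change ((p : ZMod l) ^ j * (q : ZMod l) ^ i) ^ (3 * f) = (-1) ^ (3 * f) at h4
    have h5 : (-1 : ZMod l) ^ (3 * f) = -1 := Odd.neg_one_pow (by
      rw [Nat.odd_mul]; exact ⟨by decide, hf⟩)
    have h6 : ((p : ZMod l) ^ j * (q : ZMod l) ^ i) ^ (3 * f) = 1 := by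
      have e1 : ((p : ZMod l) ^ j) ^ (3 * f) = (x ^ 3) ^ j := by
        change _ = (((p ^ f : ℕ) : ZMod l) ^ 3) ^ j
        push_cast
        ring
      have e2 : ((q : ZMod l) ^ i) ^ (3 * f) = ((q : ZMod l) ^ 3) ^ (i * f) := by ring
      rw [mul_pow, e1, e2, hx3, hq3, one_pow, one_pow, one_mul]
    rw [h5, h6] at h4
    have h7 : ((2 : ℕ) : ZMod l) = 0 := by push_cast; linear_combination h4
    rw [ZMod.natCast_eq_zero_iff] at h7
    exact h2 ((Nat.prime_dvd_prime_iff_eq hl Nat.prime_two).1 h7)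

end Cfsg.Agent.H622.Levi
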